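import Cfsg.Agent.Lib.He.M

set_option autoImplicit false
set_option maxRecDepth 100000

/-! # The model is the centraliser of a transvection -/

namespace Cfsg.Agent.Lib.He

/-- the embedding into `SL(5,2)` -/
def toSL : M →* Matrix.SpecialLinearGroup (Fin 5) (ZMod 2) :=
  MonoidHom.mk' (fun a => ⟨mat a, by
    have := congrArg Matrix.det (mat_mul a a⁻¹)
    rw [mul_inv_cancel, mat_one, Matrix.det_one, Matrix.det_mul] at this
    revert this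
    generalize (mat a).det = x
    generalize (mat a⁻¹).det = y
    revert x y; decide⟩) fun a b => Subtype.ext (mat_mul a b)

/-- the middle block -/
def dP (A : Matrix (Fin 5) (Fin 5) (ZMod 2)) : Fin 168 := fin 167 (lk tDP 8 255 ((A 2 2).val +
  2 * (A 2 3).val + 4 * (A 2 4).val + 8 * (A 3 2).val + 16 * (A 3 3).val + 32 * (A 3 4).val +
  64 * (A 4 2).val + 128 * (A 4 3).val + 256 * (A 4 4).val))

/-- the border -/
def dE (A : Matrix (Fin 5) (Fin 5) (ZMod 2)) : Fin 128 := fin 127 ((A 0 2).val +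
  2 * (A 0 3).val + 4 * (A 0 4).val + 8 * (A 2 1).val + 16 * (A 3 1).val + 32 * (A 4 1).val +
  64 * (A 0 1).val)

theorem exP : ∀ a b c d e f g h i : ZMod 2, a * (e * i + f * h) + (b * (d * i + f * g) +
    c * (d * h + e * g)) = 1 → mat ⟨dP !![1, 0, 0, 0, 0; 0, 1, 0, 0, 0; 0, 0, a, b, c; 0, 0, d, e, f; 0, 0, g, h, i], 0⟩ =
    !![1, 0, 0, 0, 0; 0, 1, 0, 0, 0; 0, 0, a, b, c; 0, 0, d, e, f; 0, 0, g, h, i] := by decide +kernel

theorem exE : ∀ a b c d e f g : ZMod 2,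
    mat ⟨0, dE !![1, g, a, b, c; 0, 1, 0, 0, 0; 0, d, 1, 0, 0; 0, e, 0, 1, 0; 0, f, 0, 0, 1]⟩ =
    !![1, g, a, b, c; 0, 1, 0, 0, 0; 0, d, 1, 0, 0; 0, e, 0, 1, 0; 0, f, 0, 0, 1] := by decide +kernel

theorem shape {A : Matrix (Fin 5) (Fin 5) (ZMod 2)}
    (h : A * Matrix.transvection 0 1 1 = Matrix.transvection 0 1 1 * A) :
    A = !![A 0 0, A 0 1, A 0 2, A 0 3, A 0 4; 0, A 0 0, 0, 0, 0; 0, A 2 1, A 2 2, A 2 3, A 2 4;
      0, A 3 1, A 3 2, A 3 3, A 3 4; 0, A 4 1, A 4 2, A 4 3, A 4 4] := by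
  rw [Matrix.transvection, mul_add, add_mul, mul_one, one_mul, add_right_inj] at h
  have k := fun i j => congrFun (congrFun h i) j
  have k0 := k 0 0
  have k1 := k 0 1
  have k2 := k 0 2
  have k3 := k 0 3
  have k4 := k 0 4
  have l2 := k 2 1
  have l3 := k 3 1
  have l4 := k 4 1
  simp [Matrix.mul_apply, Matrix.single_apply] at k0 k1 k2 k3 k4 l2 l3 l4
  ext i j
  fin_cases i <;> fin_cases j <;> simp [← k0, ← k1, ← k2, ← k3, ← k4, l2, l3, l4]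

theorem toSL_surj (A : Matrix.SpecialLinearGroup (Fin 5) (ZMod 2)) (h : A * toSL z0 = toSL z0 * A) :
    ∃ a, toSL a = A := by
  have h1 : A.1 * Matrix.transvection 0 1 1 = Matrix.transvection 0 1 1 * A.1 := by
    rw [← mat_z0]; exact congrArg Subtype.val h
  have e := shape h1
  have d := A.2
  rw [e] at d
  simp [Matrix.det_succ_row_zero, Fin.sum_univ_succ, Fin.succAbove] at d
  refine ⟨⟨0, dE !![1, A.1 0 1, 0, 0, 0; 0, 1, 0, 0, 0; 0, A.1 2 1, 1, 0, 0; 0, A.1 3 1, 0, 1, 0;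
    0, A.1 4 1, 0, 0, 1]⟩ * ⟨dP !![1, 0, 0, 0, 0; 0, 1, 0, 0, 0; 0, 0, A.1 2 2, A.1 2 3, A.1 2 4;
    0, 0, A.1 3 2, A.1 3 3, A.1 3 4; 0, 0, A.1 4 2, A.1 4 3, A.1 4 4], 0⟩ *
    ⟨0, dE !![1, 0, A.1 0 2, A.1 0 3, A.1 0 4; 0, 1, 0, 0, 0; 0, 0, 1, 0, 0; 0, 0, 0, 1, 0;
    0, 0, 0, 0, 1]⟩, Subtype.ext ?_⟩
  show mat _ = _
  rw [mat_mul, mat_mul, exE, exP _ _ _ _ _ _ _ _ _ d.2, exE]
  conv_rhs => rw [e, d.1]
  simp

theorem toSL_inj : Function.Injective toSL := fun _ _ h => mat_inj (congrArg Subtype.val h)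

end Cfsg.Agent.Lib.He
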