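import Cfsg.Agent.Lib.He.F
import Cfsg.Agent.Lib.He.SL
import Cfsg.Agent.Lib.Jk.Cnt

set_option autoImplicit false
set_option maxRecDepth 100000

/-! # The embedding of the model, the Sylow subgroup and the two subgroups of order `64` -/

namespace Cfsg.Agent.Lib.He

open Subgroup Cfsg.Agent.Lib.Core
open Cfsg.Agent.Lib.Root.J1 (Iv conj_comm' comm_of_conj comm_conj card_eq_orbit_mul card_eq_ncard)
open Cfsg.Agent.Lib.Jk (mc back conj_inj ncard_conj)

/-- the elementary abelian subgroups of order `64` -/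
def UM (i : Bool) : Subgroup M where
  carrier := {a | inU i a = true}
  one_mem' := by revert i; decide +kernel
  mul_mem' := fun ha hb => ((UL_mul i _ ((inU_iff _ _).1 ha)).2.2 _ ((inU_iff _ _).1 hb)).1
  inv_mem' := fun {a} ha => by
    rwa [inv_eq_of_mul_eq_one_right (UL_mul i _ ((inU_iff _ _).1 ha)).1]

/-- the upper unitriangular matrices -/
def TM : Subgroup M where
  carrier := {a | a.p.val < 8}
  one_mem' := by decide +kernel
  mul_mem' := fun ha hb => pm_T _ _ ha hb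
  inv_mem' := fun ha => pi_T _ ha

theorem inU_conj {i : Bool} {a s : M} :
    inU i (a * s * a⁻¹) = true ↔ inU i (pp a.p * s * (pp a.p)⁻¹) = true := by
  have := mem_normalizer_iff.1 (mem_normalizer_of_conj_mem (H := UM i) (g := ee a.e)
    fun u hu => conj_ee i _ u ((inU_iff _ _).1 hu)) (pp a.p * s * (pp a.p)⁻¹)
  rw [show ee a.e * (pp a.p * s * (pp a.p)⁻¹) * (ee a.e)⁻¹ =
    ee a.e * pp a.p * s * (ee a.e * pp a.p)⁻¹ by group, ee_pp] at this
  exact this.symm

variable {G : Type*} [Group G]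

theorem cj {a b c : G} (e : c * a * c⁻¹ = b) : IsConj a b := isConj_iff.2 ⟨_, e⟩

/-- conjugate of a subgroup -/
abbrev cg (g : G) (K : Subgroup G) : Subgroup G := K.map (MulAut.conj g).toMonoidHom

theorem cg_eq_iff {g k : G} {K : Subgroup G} : cg g K = cg k K ↔ k⁻¹ * g ∈ normalizer (K : Set G) := by
  rw [← map_conj_eq_iff, ← map_conj_map_conj]
  exact ⟨fun e => by rw [show K.map _ = cg k K from e, map_conj_inv_map_conj],
    fun e => (map_conj_map_conj_inv _ k).symm.trans (congrArg (cg k) e)⟩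

/-- `φ` identifies the model with the centraliser of `z` -/
structure Emb (z : G) (φ : M →* G) : Prop where
  inj : Function.Injective φ
  map_z : φ z0 = z
  surj : ∀ g, g * z = z * g → ∃ a, φ a = g

def UU (φ : M →* G) (i : Bool) : Subgroup G := (UM i).map φ
def TT (φ : M →* G) : Subgroup G := TM.map φ

theorem cen_M {a : M} (h2 : a * a = 1) (h : ∀ b, b * a = a * b) : a = 1 ∨ a = z0 :=
  TI_cen a (mem_TI a.p (by
    have := (inR_iff a).1 (h t0).symm
    simp only [inR, Bool.and_eq_true, Nat.blt_eq] at this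
    exact this.1) a.e h2) fun g _ => h g

theorem exists_emb (s : Matrix.SpecialLinearGroup (Fin 5) (ZMod 2))
    (hs : (s : Matrix (Fin 5) (Fin 5) (ZMod 2)) = Matrix.transvection 0 1 1) {j : G} (hj : orderOf j = 2)
    (e : centralizer ({j} : Set G) ≃* centralizer ({s} : Set (Matrix.SpecialLinearGroup (Fin 5) (ZMod 2)))) :
    ∃ φ, Emb j φ := by
  obtain rfl : toSL z0 = s := Subtype.ext (mat_z0.trans hs.symm)
  let φ : M →* G := (centralizer {j}).subtype.comp (e.symm.toMonoidHom.comp (toSL.codRestrict _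
    fun a => mc.2 (by rw [← map_mul, ← map_mul, z0_comm])))
  have inj : Function.Injective φ := fun a b h =>
    toSL_inj (congrArg Subtype.val (e.symm.injective (Subtype.ext h)))
  have surj : ∀ g, g * j = j * g → ∃ a, φ a = g := fun g hg => by
    obtain ⟨a, ha⟩ := toSL_surj _ (mc.1 (e ⟨g, mc.2 hg⟩).2)
    exact ⟨a, congrArg Subtype.val (e.symm_apply_eq.2 (Subtype.ext ha) : e.symm _ = ⟨g, mc.2 hg⟩)⟩
  refine ⟨φ, inj, ?_, surj⟩
  obtain ⟨a, ha⟩ := surj j rfl
  rcases cen_M (a := a) (inj (by rw [map_mul, ha, map_one, Invol.mul_self_of_orderOf_two hj]))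
    (fun b => inj (by rw [map_mul, map_mul, ha]; exact mc.1 (e.symm _).2)) with rfl | rfl
  · rw [← ha] at hj; simp at hj
  · exact ha

namespace Emb
variable {z : G} {φ : M →* G} (h : Emb z φ)
include h

theorem eq_iff {a b : M} : φ a = φ b ↔ a = b := h.inj.eq_iff

theorem eq_one {a : M} : φ a = 1 ↔ a = 1 := by rw [← map_one φ, h.eq_iff]

theorem comm (a : M) : φ a * z = z * φ a := by rw [← h.map_z, ← map_mul, z0_comm, map_mul]

theorem iv_iff {a : M} : Iv (φ a) ↔ cls a < 8 := by simp [Iv, ← map_mul, h.eq_one, (cls_spec a).1]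

theorem comm_iff {a b : M} : φ a * φ b = φ b * φ a ↔ a * b = b * a := by
  rw [← map_mul, ← map_mul, h.eq_iff]

theorem conj_iff {a b c : M} : φ a * φ b * (φ a)⁻¹ = φ c ↔ a * b * a⁻¹ = c := by
  rw [← map_inv, ← map_mul, ← map_mul, h.eq_iff]

theorem iv : Iv z := h.map_z ▸ h.iv_iff.2 (by decide +kernel)

theorem iv_of {u : G} (hu : IsConj z u) : Iv u := by
  obtain ⟨g, rfl⟩ := isConj_iff.1 hu; exact h.iv.conj g

theorem ncard_list (P : G → Prop) (l : List M) (hl : l.Nodup) (hP : ∀ g, P g → g * z = z * g)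
    (hQ : ∀ a, P (φ a) ↔ a ∈ l) : {g | P g}.ncard = l.length := by
  have : {g | P g} = φ '' (l.toFinset : Finset M) := by
    ext g
    constructor
    · intro hg
      obtain ⟨a, rfl⟩ := h.surj g (hP g hg)
      exact ⟨a, by simpa using (hQ a).1 hg, rfl⟩
    · rintro ⟨a, ha, rfl⟩
      exact (hQ a).2 (by simpa using ha)
  rw [this, Set.ncard_image_of_injective _ h.inj, Set.ncard_coe_finset, List.toFinset_card_of_nodup hl]

theorem card_sub (K : Subgroup G) (Q : M → Bool) (hP : K ≤ centralizer {z})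
    (hQ : ∀ a, φ a ∈ K ↔ Q a = true) : Nat.card K = (LM.filter Q).length := by
  rw [card_eq_ncard]
  exact h.ncard_list (· ∈ K) _ (nodup_LM.filter _) (fun g hg => mc.1 (hP hg)) fun a => by
    simp [hQ, mem_LM]

theorem card_cent : Nat.card (centralizer ({z} : Set G)) = 21504 := by
  rw [h.card_sub _ (fun _ => true) le_rfl fun a => by simp [mc, h.comm]]
  simp [LM, List.length_product]

theorem isConj_rep {a : M} (ha : cls a < 8) : IsConj (φ (rep (cls a))) (φ a) :=
  cj (h.conj_iff.2 ((cls_spec a).2.2 ha))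

theorem mem_map {K : Subgroup M} {a : M} : φ a ∈ K.map φ ↔ a ∈ K := mem_map_iff_mem h.inj

theorem memU' {i : Bool} {a : M} : φ a ∈ UU φ i ↔ inU i a = true := h.mem_map

omit h in
theorem memU {i : Bool} {y : G} : y ∈ UU φ i ↔ ∃ a ∈ UL i, φ a = y := by
  simp only [← inU_iff]; rfl

theorem memZ {y : G} (hy : ∀ i, y ∈ UU φ i) : ∃ a ∈ ZL, φ a = y := by
  obtain ⟨a, -, rfl⟩ := memU.1 (hy false)
  exact ⟨a, (mem_ZL a).2 fun i => h.memU'.1 (hy i), rfl⟩

theorem memT' {a : M} : φ a ∈ TT φ ↔ a.p.val < 8 := h.mem_map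

omit h in
theorem U_sq {i : Bool} {y : G} (hy : y ∈ UU φ i) : y * y = 1 := by
  obtain ⟨a, ha, rfl⟩ := memU.1 hy
  rw [← map_mul, (UL_mul i a ha).1, map_one]

omit h in
theorem U_comm {i : Bool} {y w : G} (hy : y ∈ UU φ i) (hw : w ∈ UU φ i) : y * w = w * y := by
  obtain ⟨a, ha, rfl⟩ := memU.1 hy
  obtain ⟨b, hb, rfl⟩ := memU.1 hw
  rw [← map_mul, ((UL_mul i a ha).2.2 b hb).2, map_mul]

omit h in
theorem U_le_T (i : Bool) : UU φ i ≤ TT φ :=
  map_mono fun a ha => (UL_mul i a ((inU_iff _ _).1 ha)).2.1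

theorem T_le : TT φ ≤ centralizer {z} := by rintro _ ⟨a, -, rfl⟩; exact mc.2 (h.comm a)

theorem zU (i : Bool) : z ∈ UU φ i := h.map_z ▸ h.memU'.2 (by revert i; decide +kernel)

theorem tU (i : Bool) : φ t0 ∈ UU φ i := h.memU'.2 (by revert i; decide +kernel)

theorem card_U (i : Bool) : Nat.card (UU φ i) = 64 := by
  rw [card_eq_ncard, ← (nodup_UL i).2]
  exact h.ncard_list (· ∈ UU φ i) _ (nodup_UL i).1 (fun g hg => U_comm hg (h.zU i))
    fun a => h.memU'.trans (inU_iff _ _)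

theorem card_T : Nat.card (TT φ) = 1024 := by
  rw [h.card_sub _ (fun a => Nat.blt a.p.val 8) h.T_le fun a => by simp [h.memT']]
  decide +kernel

theorem pT : IsPGroup 2 (TT φ) := IsPGroup.of_card (n := 10) h.card_T

theorem pU (i : Bool) : IsPGroup 2 (UU φ i) := IsPGroup.of_card (n := 6) (h.card_U i)

theorem normT {n : G} (hn : n ∈ normalizer (TT φ : Set G)) : n * z = z * n := by
  have zT := U_le_T false (h.zU false)
  obtain ⟨a, ha, e⟩ := conj_mem_of_mem_normalizer hn zT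
  rcases TI_cen a (mem_TI a.p ha a.e (h.inj (by
    show φ (a * a) = φ 1
    rw [map_mul, e, map_one, (h.iv.conj n).2]))) (fun g hg => h.comm_iff.1 (by
      rw [e]
      have := comm_conj n (mc.1 (h.T_le (conj_mem_of_mem_normalizer' hn (h.memT'.2
        ((by decide +kernel : ∀ g ∈ GT, g.p.val < 8) g hg)))))
      simpa [mul_assoc] using this)) with rfl | rfl
  · exact absurd (e.symm.trans (map_one φ)) (h.iv.conj n).1
  · exact (comm_of_conj (e.symm.trans h.map_z)).symm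

variable [Finite G]

theorem normU {i : Bool} {a : M} : φ a ∈ normalizer (UU φ i : Set G) ↔ np i a.p = true := by
  constructor
  · intro ha
    have c : ∀ i, cc i ∈ UL i ∧ ¬ cls (cc i) < 4 ∧ cc i ≠ 1 := by decide +kernel
    have := conj_mem_of_mem_normalizer ha (memU.2 ⟨_, (c i).1, rfl⟩)
    rw [← map_inv, ← map_mul, ← map_mul, h.memU', inU_conj] at this
    exact (((uniq_pp i _ (c i).1).resolve_left (c i).2.1).resolve_left (c i).2.2) _ this
  · refine fun ha => mem_normalizer_of_conj_mem fun y hy => ?_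
    obtain ⟨u, hu, rfl⟩ := memU.1 hy
    rw [← map_inv, ← map_mul, ← map_mul, h.memU', inU_conj]
    exact conj_pp i _ ha u hu

theorem T_norm (i : Bool) : TT φ ≤ normalizer (UU φ i : Set G) := by
  rintro _ ⟨a, ha, rfl⟩; exact h.normU.2 (np_T i _ ha)

theorem U_norm (i j : Bool) : UU φ i ≤ normalizer (UU φ j : Set G) := (U_le_T i).trans (h.T_norm j)

theorem sylT : IsSyl 2 (TT φ) ⊤ := by
  have : IsSyl 2 (TT φ) (centralizer {z}) := ⟨h.T_le, h.pT, by
    have := card_mul_relIndex h.T_le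
    rw [h.card_T, h.card_cent] at this
    omega⟩
  exact isSyl_of_isSyl_normalizer (this.mono (le_inf le_top le_normalizer) fun n hn => mc.2 (h.normT hn.2))

theorem cg_le_T {i : Bool} {g : G} (hg : cg g (UU φ i) ≤ TT φ) : ∃ j, cg g (UU φ i) = UU φ j := by
  have c : Nat.card (cg g (UU φ i)) = 64 := by rw [card_map_conj, h.card_U]
  have sq : ∀ y ∈ cg g (UU φ i), y * y = 1 := by
    rintro _ ⟨y, hy, rfl⟩; rw [← map_mul, U_sq hy, map_one]
  have cm : ∀ y ∈ cg g (UU φ i), ∀ w ∈ cg g (UU φ i), y * w = w * y := by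
    rintro _ ⟨y, hy, rfl⟩ _ ⟨w, hw, rfl⟩; rw [← map_mul, U_comm hy hw, map_mul]
  generalize cg g (UU φ i) = E at *
  have mT : ∀ a, φ a ∈ E → a ∈ TI := fun a ha => mem_TI a.p (h.memT'.1 (hg ha)) a.e
    (h.inj (by show φ (a * a) = φ 1; rw [map_mul, sq _ ha, map_one]))
  have k : ∀ y ∈ E, y ∈ UU φ false ∨ y ∈ UU φ true := fun y hy => by
    obtain ⟨a, -, rfl⟩ := hg hy
    rw [h.memU', h.memU']
    by_contra e
    have l := ((TI_cnt a (mT a hy)).resolve_left fun e1 => e (.inl e1)).resolve_left fun e1 => e (.inr e1)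
    have : (E : Set G) ⊆ φ '' ((TI.filter fun x => x * a = a * x).toFinset : Finset M) := fun w hw => by
      obtain ⟨b, -, rfl⟩ := hg hw
      exact ⟨b, by simpa using ⟨mT b hw, h.comm_iff.1 (cm _ hw _ hy)⟩, rfl⟩
    have := (Set.ncard_le_ncard this).trans (Set.ncard_image_le)
    rw [Set.ncard_coe_finset, ← card_eq_ncard] at this
    have := this.trans (List.toFinset_card_le _)
    omega
  have : E ≤ UU φ false ∨ E ≤ UU φ true := by
    by_contra e
    simp only [not_or, SetLike.le_def, not_forall] at e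
    obtain ⟨⟨x, hx, x1⟩, y, hy, y1⟩ := e
    rcases k _ (mul_mem hx hy) with e | e
    · exact x1 ((mul_mem_cancel_right ((k y hy).resolve_right y1)).1 e)
    · exact y1 ((mul_mem_cancel_left ((k x hx).resolve_left x1)).1 e)
  rcases this with e | e
  exacts [⟨_, eq_of_le_of_card_ge e (by rw [c, h.card_U])⟩, ⟨_, eq_of_le_of_card_ge e (by rw [c, h.card_U])⟩]

theorem cg_ne (i : Bool) (g : G) : cg g (UU φ i) ≠ UU φ (!i) := fun e => by
  have s1 := h.sylT.mono (h.T_norm (!i)) le_top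
  have s2 := (h.sylT.mono (h.T_norm i) le_top).conj g
  rw [map_conj_normalizer, show (UU φ i).map _ = _ from e] at s2
  obtain ⟨c, hc, e1⟩ := s2.exists_conj s1
  rw [map_conj_map_conj, map_conj_eq_iff] at e1
  obtain ⟨a, ha⟩ := h.surj _ (h.normT e1)
  have : φ a * φ (cc i) * (φ a)⁻¹ ∈ UU φ (!i) := by
    rw [← map_conj_eq_iff.2 hc, ← e, map_conj_map_conj, ha, conj_mem_map_conj, h.memU']
    cases i <;> decide +kernel
  rw [← map_inv, ← map_mul, ← map_mul, h.memU', inU_conj, cc_pp] at this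
  exact absurd this (by simp)

theorem weak {i : Bool} {g : G} (hg : cg g (UU φ i) ≤ TT φ) : cg g (UU φ i) = UU φ i := by
  obtain ⟨j, e⟩ := h.cg_le_T hg
  by_cases e1 : j = i
  · rw [e, e1]
  · exact absurd e (Bool.eq_not_of_ne e1 ▸ h.cg_ne i g)

theorem weak' {P : Subgroup G} (hP : IsPGroup 2 P) : ∃ k, ∀ i g, cg g (UU φ i) ≤ P →
    cg g (UU φ i) = cg k (UU φ i) := by
  obtain ⟨k, -, e⟩ := h.sylT.exists_conj_le hP le_top
  refine ⟨k⁻¹, fun i g hg => cg_eq_iff.2 ?_⟩
  rw [inv_inv, ← map_conj_eq_iff]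
  exact h.weak (by rw [cg, ← map_conj_map_conj]; exact (map_mono hg).trans e)

/-- conjugacy inside a subgroup -/
theorem conj_in {K : Subgroup G} {i : Bool} {g : G} (h1 : UU φ i ≤ K) (h2 : cg g (UU φ i) ≤ K) :
    ∃ c ∈ K, c * g ∈ normalizer (UU φ i : Set G) := by
  obtain ⟨S, hS, e⟩ := exists_isSyl_ge (h.pU i) h1
  obtain ⟨c, hc, e1⟩ := hS.exists_conj_le ((h.pU i).map _) h2
  obtain ⟨k, hk⟩ := h.weak' hS.isPGroup
  rw [map_conj_map_conj] at e1
  exact ⟨c, hc, by simpa using cg_eq_iff.1 ((hk i _ e1).trans (hk i 1 (by rwa [cg, map_conj_one])).symm)⟩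

/-- control of fusion -/
theorem ctrl {i : Bool} {y g : G} (h1 : y ∈ UU φ i) (h2 : g * y * g⁻¹ ∈ UU φ i) :
    ∃ n ∈ normalizer (UU φ i : Set G), n * y * n⁻¹ = g * y * g⁻¹ := by
  obtain ⟨c, hc, e⟩ := h.conj_in (K := centralizer {g * y * g⁻¹}) (g := g)
    (fun w hw => mc.2 (U_comm hw h2)) (map_conj_le_iff.2 fun w hw => mc.2 (comm_conj g (U_comm hw h1)))
  exact ⟨_, e, by
    calc _ = c * (g * y * g⁻¹) * c⁻¹ := by group
      _ = _ := conj_comm' (mc.1 hc).symm⟩

theorem ctrl2 {y g : G} (h1 : ∀ i, y ∈ UU φ i) (h2 : ∀ i, g * y * g⁻¹ ∈ UU φ i) :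
    ∃ n, (∀ i, n ∈ normalizer (UU φ i : Set G)) ∧ n * y * n⁻¹ = g * y * g⁻¹ := by
  have p2 : IsPGroup 2 ↥(UU φ false ⊔ UU φ true) := h.pT.to_le (sup_le (U_le_T _) (U_le_T _))
  have l : ∀ i, UU φ i ≤ UU φ false ⊔ UU φ true := by rintro (_ | _); exacts [le_sup_left, le_sup_right]
  obtain ⟨S, hS, e⟩ := exists_isSyl_ge (H := centralizer {g * y * g⁻¹}) p2
    (sup_le (fun w hw => mc.2 (U_comm hw (h2 _))) fun w hw => mc.2 (U_comm hw (h2 _)))
  obtain ⟨c, hc, e1⟩ := hS.exists_conj_le (p2.map (MulAut.conj g).toMonoidHom) (by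
    rw [← map_conj_centralizer_singleton]
    exact map_mono (sup_le (fun w hw => mc.2 (U_comm hw (h1 _))) fun w hw => mc.2 (U_comm hw (h1 _))))
  obtain ⟨k, hk⟩ := h.weak' hS.isPGroup
  rw [map_conj_map_conj] at e1
  refine ⟨c * g, fun i => ?_, ?_⟩
  · simpa using cg_eq_iff.1 ((hk i _ ((map_mono (l i)).trans e1)).trans
      (hk i 1 (by rw [cg, map_conj_one]; exact (l i).trans e)).symm)
  · calc _ = c * (g * y * g⁻¹) * c⁻¹ := by group
      _ = _ := conj_comm' (mc.1 hc).symm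

end Emb

end Cfsg.Agent.Lib.He
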