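import Cfsg.Agent.Lib.He.Base

set_option autoImplicit false

/-! # General counting lemmas -/

namespace Cfsg.Agent.Lib.He

open Subgroup Finset Cfsg.Agent.Lib.Core
open Cfsg.Agent.Lib.Root.J1 (Iv conj_comm' comm_of_conj comm_conj card_eq_orbit_mul card_eq_ncard)
open Cfsg.Agent.Lib.Jk (mc back conj_inj ncard_conj)

variable {G : Type*} [Group G]

theorem isConj_cj {s y g : G} : IsConj s (g * y * g⁻¹) ↔ IsConj s y :=
  ⟨fun e => e.trans (cj rfl).symm, fun e => e.trans (cj rfl)⟩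

/-- conjugacy inside a subgroup -/
def Cj (K : Subgroup G) (a b : G) : Prop := ∃ k ∈ K, k * a * k⁻¹ = b

theorem Cj.isConj {K : Subgroup G} {a b : G} (h : Cj K a b) : IsConj a b :=
  let ⟨_, _, e⟩ := h; cj e

theorem Cj.refl (K : Subgroup G) (a : G) : Cj K a a := ⟨1, one_mem _, by simp⟩

theorem Cj.trans {K : Subgroup G} {a b c : G} (h : Cj K a b) (h' : Cj K b c) : Cj K a c := by
  obtain ⟨k, hk, rfl⟩ := h
  obtain ⟨l, hl, rfl⟩ := h'
  exact ⟨l * k, mul_mem hl hk, by group⟩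

theorem Cj.symm {K : Subgroup G} {a b : G} (h : Cj K a b) : Cj K b a := by
  obtain ⟨k, hk, rfl⟩ := h
  exact ⟨k⁻¹, inv_mem hk, by group⟩

theorem Cj.conj {K : Subgroup G} {a b k : G} (h : Cj K a b) (hk : k ∈ K) : Cj K a (k * b * k⁻¹) :=
  h.trans ⟨k, hk, rfl⟩

theorem dih_even {K : Subgroup G} {a r : G} (hr : r ∈ K) (h : a * r * a⁻¹ = r⁻¹) (m : ℕ) :
    Cj K a (a * r ^ (2 * m)) :=
  ⟨(r ^ m)⁻¹, inv_mem (pow_mem hr m), by
    rw [inv_inv, ← Invol.conj_pow_of_inverts h m, two_mul, pow_add]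
    simp only [mul_assoc, inv_mul_cancel_left]⟩

theorem dih {K : Subgroup G} {a b : G} (aK : a ∈ K) (bK : b ∈ K) (ha : a * a = 1) (hb : b * b = 1)
    (k : ℕ) : (Cj K a (a * (a * b) ^ k) ∧ Cj K b (b * (a * b) ^ k) ∧ Even k) ∨
    (Cj K b (a * (a * b) ^ k) ∧ Cj K a (b * (a * b) ^ k)) := by
  have r := mul_mem aK bK
  rcases Nat.even_or_odd' k with ⟨m, rfl | rfl⟩
  · exact .inl ⟨dih_even r (Invol.conj_mul_eq_inv ha hb) m,
      dih_even r (Invol.conj_right_mul_eq_inv ha hb) m, by simp⟩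
  · refine .inr ⟨?_, ?_⟩
    · rw [pow_succ', ← mul_assoc, ← mul_assoc, ha, one_mul]
      exact dih_even r (Invol.conj_right_mul_eq_inv ha hb) m
    · rw [pow_succ', ← mul_assoc, ← mul_assoc]
      refine Cj.trans ⟨b, bK, by rw [inv_eq_of_mul_eq_one_right hb]⟩ (dih_even r ?_ m)
      calc _ = b * (a * (b * (a * b) * b⁻¹) * a⁻¹) * b⁻¹ := by group
        _ = _ := by
          rw [Invol.conj_right_mul_eq_inv ha hb, ← conj_inv, Invol.conj_mul_eq_inv ha hb, inv_inv,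
            Invol.conj_right_mul_eq_inv ha hb]

theorem dih_ex [Finite G] {K : Subgroup G} {a b : G} (aK : a ∈ K) (bK : b ∈ K) (ha : Iv a) (hb : Iv b)
    (he : ¬ Odd (orderOf (a * b))) : ∃ m ∈ zpowers (a * b), Iv m ∧ Commute m a ∧ Commute m b ∧
    ((Cj K a (a * m) ∧ Cj K b (b * m)) ∨ (Cj K b (a * m) ∧ Cj K a (b * m))) := by
  obtain ⟨m2, c1, c2⟩ := Invol.half_pow_central ha.2 hb.2 (Nat.not_odd_iff_even.1 he)
  exact ⟨_, pow_mem (mem_zpowers _) _, ⟨Invol.ne_one_of_orderOf_two m2, Invol.mul_self_of_orderOf_two m2⟩,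
    c1, c2, (dih aK bK ha.2 hb.2 _).imp_left fun e => ⟨e.1, e.2.1⟩⟩

theorem ex_swap {a b : G} (ha : Iv a) (hb : Iv b) (ho : Odd (orderOf (a * b))) :
    ∃ k, k * a * k⁻¹ = b ∧ k * b * k⁻¹ = a ∧ ∀ K : Subgroup G, a ∈ K → b ∈ K → k ∈ K ∧ Cj K a k := by
  obtain ⟨s, hs⟩ := Invol.exists_pow_conj_of_odd ha.2 hb.2 ho
  obtain ⟨m, hm⟩ := ho
  have i := Invol.conj_mul_eq_inv ha.2 hb.2
  have e : a * (a * b) ^ (2 * (s * m)) = (a * b) ^ s * a := by
    have : (a * b) ^ (2 * (s * m)) * (a * b) ^ s = 1 := by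
      rw [← pow_add, show 2 * (s * m) + s = (2 * m + 1) * s by ring, pow_mul, ← hm, pow_orderOf_eq_one,
        one_pow]
    rw [eq_inv_of_mul_eq_one_left this, ← Invol.conj_pow_of_inverts i, ha.inv]
    simp only [← mul_assoc, ha.2, one_mul]
  have k1 : (a * b) ^ s * a * a * ((a * b) ^ s * a)⁻¹ = b := (by group : _ = _).trans hs
  have k2 : Iv ((a * b) ^ s * a) := by
    obtain ⟨c, -, e1⟩ := dih_even (mem_top _) i (s * m)
    rw [← e, ← e1]; exact ha.conj c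
  refine ⟨_, k1, ?_, fun K aK bK => ⟨mul_mem (pow_mem (mul_mem aK bK) _) aK,
    e ▸ dih_even (mul_mem aK bK) i _⟩⟩
  generalize (a * b) ^ s * a = k at *
  rw [← k1, k2.inv]; simp only [mul_assoc, k2.cancel, k2.2, mul_one]

theorem eq_of_odd {a b : G} (ha : Iv a) (hb : Iv b) (ho : Odd (orderOf (a * b))) {n : ℕ}
    (h2 : (a * b) ^ 2 ^ n = 1) : a = b := by
  have := (Nat.Coprime.pow_right n (Nat.coprime_two_right.2 ho)).eq_one_of_dvd
    (orderOf_dvd_of_pow_eq_one h2)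
  rw [eq_inv_of_mul_eq_one_left (orderOf_eq_one_iff.1 this), hb.inv]

theorem iv_unique {y a b : G} (ha : Iv a) (hb : Iv b) (h1 : a ∈ zpowers y) (h2 : b ∈ zpowers y) :
    a = b := Invol.involution_unique_of_isCyclic inferInstance h1 h2 ha.orderOf hb.orderOf

theorem dc {α β : Type*} [Finite α] [Finite β] (S : Set α) (T : Set β) (R : α → β → Prop) (d c : ℕ)
    (hS : ∀ a ∈ S, {b | b ∈ T ∧ R a b}.ncard = d) (hT : ∀ b ∈ T, {a | a ∈ S ∧ R a b}.ncard = c) :
    S.ncard * d = T.ncard * c := by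
  classical
  rw [Set.ncard_eq_toFinset_card S, Set.ncard_eq_toFinset_card T]
  refine card_mul_eq_card_mul R (fun a ha => ?_) fun b hb => ?_
  · rw [← hS a (by simpa using ha), ← Set.ncard_coe_finset]; congr 1; ext; simp [bipartiteAbove]
  · rw [← hT b (by simpa using hb), ← Set.ncard_coe_finset]; congr 1; ext; simp [bipartiteBelow]

theorem ncard_one {α : Type*} {S : Set α} (a : α) (h : ∀ b, b ∈ S ↔ b = a) : S.ncard = 1 := by
  rw [show S = {a} from Set.ext h, Set.ncard_singleton]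

theorem card_orb [Finite G] (K A : Subgroup G) : Nat.card K = {B | ∃ k ∈ K, cg k A = B}.ncard *
    Nat.card (K ⊓ normalizer (A : Set G) : Subgroup G) := by
  have e := dc (K : Set G) {B | ∃ k ∈ K, cg k A = B} (fun k B => cg k A = B) 1
    (Nat.card (K ⊓ normalizer (A : Set G) : Subgroup G))
    (fun k hk => ncard_one (cg k A) fun B => ⟨fun e => e.2.symm, by rintro rfl; exact ⟨⟨k, hk, rfl⟩, rfl⟩⟩)
    (by
      rintro _ ⟨k, hk, rfl⟩
      rw [card_eq_ncard, ← Set.ncard_image_of_injective _ (mul_right_injective k⁻¹)]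
      congr 1
      ext n
      constructor
      · rintro ⟨l, hl, rfl⟩
        exact ⟨K.mul_mem (K.inv_mem hk) hl.1, cg_eq_iff.1 hl.2⟩
      · exact fun hn => ⟨k * n, ⟨K.mul_mem hk hn.1, cg_eq_iff.2 (by simpa using hn.2)⟩, by simp⟩)
  rwa [mul_one, ← card_eq_ncard] at e

theorem fix_modEq {α : Type*} [Finite α] {p : ℕ} [Fact p.Prime] (f : α → α) (S : Set α)
    (hS : ∀ a ∈ S, f a ∈ S) (hf : ∀ a ∈ S, f^[p] a = a) :
    S.ncard ≡ {a | a ∈ S ∧ f a = a}.ncard [MOD p] := by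
  classical
  have := Fintype.ofFinite S
  let g : Function.End S := fun a => ⟨f a, hS a a.2⟩
  have k : ∀ n (a : S), ((g ^ n) a : α) = f^[n] a := fun n => by
    induction n with
    | zero => exact fun a => rfl
    | succ n ih => exact fun a => by rw [pow_succ]; exact ih (g a)
  have e := Equiv.Perm.card_fixedPoints_modEq (f := g) (p := p) (n := 1)
    (funext fun a => Subtype.ext (by rw [pow_one, k, hf a a.2]; rfl))
  rw [← Nat.card_eq_fintype_card, ← Nat.card_eq_fintype_card, Nat.card_coe_set_eq, Nat.card_coe_set_eq,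
    ← Set.ncard_image_of_injective _ Subtype.val_injective] at e
  convert e using 2
  ext a
  exact ⟨fun ha => ⟨⟨a, ha.1⟩, Subtype.ext ha.2, rfl⟩,
    by rintro ⟨a, ha, rfl⟩; exact ⟨a.2, congrArg Subtype.val ha⟩⟩

theorem dvd_ncard [Finite G] (K : Subgroup G) (d : ℕ) (X : Set G)
    (hX : ∀ k ∈ K, ∀ x ∈ X, k * x * k⁻¹ ∈ X)
    (hd : ∀ x ∈ X, d ∣ {y | ∃ k ∈ K, k * x * k⁻¹ = y}.ncard) : d ∣ X.ncard := by
  induction hn : X.ncard using Nat.strong_induction_on generalizing X with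
  | _ n ih =>
    rcases X.eq_empty_or_nonempty with rfl | ⟨x, hx⟩
    · simp [← hn]
    have hO : {y | ∃ k ∈ K, k * x * k⁻¹ = y} ⊆ X := by rintro _ ⟨k, hk, rfl⟩; exact hX k hk x hx
    have e := Set.ncard_sdiff_add_ncard_of_subset hO
    have pos : 0 < {y | ∃ k ∈ K, k * x * k⁻¹ = y}.ncard :=
      (Set.ncard_pos).2 ⟨x, 1, one_mem _, by simp⟩
    rw [← hn, ← e]
    refine dvd_add (ih _ (by omega) (X \ {y | ∃ k ∈ K, k * x * k⁻¹ = y})
      (fun k hk y hy => And.intro (hX k hk y hy.1) ?_) (fun y hy => hd y hy.1) rfl) (hd x hx)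
    rintro ⟨l, hl, e1⟩
    exact hy.2 ⟨k⁻¹ * l, mul_mem (inv_mem hk) hl, by
      calc _ = k⁻¹ * (l * x * l⁻¹) * k := by group
        _ = y := by rw [e1]; group⟩

theorem ncard_split {α : Type*} [Finite α] (P Q : α → Prop) :
    {g | P g}.ncard = {g | P g ∧ Q g}.ncard + {g | P g ∧ ¬ Q g}.ncard := by
  rw [← Set.ncard_union_eq (Set.disjoint_left.2 fun _ h1 h2 => h2.2 h1.2)]
  congr 1; ext; simp; tauto

theorem card_sum [Fintype G] (P : G → Prop) [DecidablePred P] (R : G → G → Prop) :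
    Nat.card {p : G × G // P p.1 ∧ R p.1 p.2} = ∑ a with P a, {b | R a b}.ncard := by
  have e : {p : G × G // P p.1 ∧ R p.1 p.2} ≃ Σ a : {a // P a}, {b | R a b} :=
    ⟨fun p => ⟨⟨p.1.1, p.2.1⟩, ⟨p.1.2, p.2.2⟩⟩, fun s => ⟨(s.1, s.2), s.1.2, s.2.2⟩,
      fun _ => rfl, fun _ => rfl⟩
  rw [Nat.card_congr e, Nat.card_sigma, sum_subtype (p := P) (univ.filter P) (by simp)]
  rfl

theorem sum_conj [Fintype G] (a : G) [DecidablePred (IsConj a)] (F : G → ℕ) :
    ∑ g, F (g * a * g⁻¹) = Nat.card (centralizer ({a} : Set G)) * ∑ u with IsConj a u, F u := by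
  classical
  rw [← sum_fiberwise_of_maps_to (s := univ) (t := univ.filter (IsConj a)) (g := fun g => g * a * g⁻¹)
    (fun g _ => by simpa using cj rfl), mul_sum]
  refine sum_congr rfl fun u hu => ?_
  obtain ⟨k, rfl⟩ := isConj_iff.1 (mem_filter.1 hu).2
  rw [sum_congr rfl (g := fun _ => F (k * a * k⁻¹)) fun g hg => by rw [(mem_filter.1 hg).2], sum_const,
    smul_eq_mul, card_eq_ncard, ← Set.ncard_image_of_injective _ (mul_right_injective k),
    ← Set.ncard_coe_finset]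
  congr 2
  ext g
  simp only [coe_filter, mem_univ, true_and, Set.mem_ofPred_eq, Set.mem_image, SetLike.mem_coe, mc]
  constructor
  · exact fun e => ⟨k⁻¹ * g, (comm_of_conj (by
      calc _ = k⁻¹ * (g * a * g⁻¹) * k := by group
        _ = a := by rw [e]; group)).symm, by simp⟩
  · rintro ⟨c, hc, rfl⟩
    calc _ = k * (c * a * c⁻¹) * k⁻¹ := by group
      _ = _ := by rw [conj_comm' hc.symm]

end Cfsg.Agent.Lib.He
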